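import Cfsg.Agent.H68.JM.Inter

/-!
# Facts F5 and F17 on the 2-local geometry of `J4`

Two conjugates of `2^11` intersect in 1, in a group of order 2 (of class 2A) or in a line;
if `P` and `P'` are disjoint then `|P ∩ N(P')| ≤ 16`.
-/

set_option autoImplicit false

open Cfsg

namespace Cfsg.Agent.H68.JM

open Cfsg.Agent.Lib Cfsg.Agent.Lib.F2MatGroup
open Cfsg.Agent.J4.Rep112 Cfsg.Agent.J4.LowerData Cfsg.Agent.J4.Lower Cfsg.Agent.J4.Beta
open Cfsg.Agent.J4.Upper Cfsg.Agent.J4.Pres Cfsg.Agent.J4.Invol Cfsg.Agent.J4.M24Hom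
open Cfsg.Agent.H858 Cfsg.Agent.H858.VK Cfsg.Agent.H858.Data Cfsg.Agent.H860.JM
open Cfsg.Agent.H858.Pent Cfsg.Agent.J4.Classes

/-! ### The nontrivial intersections -/

/-- the equations `r V(a) = V(b) r` -/
def eqJ (l : List (ℕ × ℕ)) : List (List ℕ × List ℕ) :=
  l.map fun p => (0 :: bw 11 1 p.1, bw 11 1 p.2 ++ [0])

theorem check7 : run 112 (slpQ ++ [wd 7]) codes (eqs 112 (eqJ [(36, 817), (619, 591), (94, 477)])) =
    true := by decide +kernel

theorem check8 : run 112 (slpQ ++ [wd 8]) codes (eqs 112 (eqJ [(1563, 748)])) = true := by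
  decide +kernel

theorem check11 : run 112 (slpQ ++ [wd 11]) codes (eqs 112 (eqJ [(765, 444)])) = true := by
  decide +kernel

theorem of_check {i : ℕ} (hi : i < 20) {l : List (ℕ × ℕ)}
    (h : run 112 (slpQ ++ [wd i]) codes (eqs 112 (eqJ l)) = true) {a b : ℕ} (hl : (a, b) ∈ l) :
    V a ∈ Pi i := by
  obtain ⟨L, h1, h2⟩ := run_sound codes_gens h
  have h3 := eqs_sound h1 h2 (0 :: bw 11 1 a, bw 11 1 b ++ [0]) (List.mem_map.2 ⟨(a, b), hl, rfl⟩)
  rw [runG_map, evG_map, evG_map] at h3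
  have h4 := rho_injective h3
  rw [runG_append] at h4
  have h5 : runG [wd i] (runG slpQ gens) = evG (runG slpQ gens) (wd i) :: runG slpQ gens := rfl
  rw [h5, ← rr_eq hi, evG_append, evG_cons, evG_cons] at h4
  have hg : ∀ k < lJ.length, getG (rr i :: runG slpQ gens) (1 + k) = lJ.getD k 1 := by
    intro k hk
    rw [lJ_length] at hk
    rw [add_comm]
    exact getG_take _ 11 k hk
  have h6 : ∀ v, evG (rr i :: runG slpQ gens) (bw 11 1 v) = V v := by
    intro v
    have h7 := evG_bw (rr i :: runG slpQ gens) lJ 1 v hg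
    rwa [lJ_length] at h7
  have h0 : getG (rr i :: runG slpQ gens) 0 = rr i := rfl
  rw [h6, h6, h0, evG_nil, mul_one] at h4
  unfold Pi
  rw [mem_cj, inv_inv, h4, mul_inv_cancel_right]
  exact V_mem b

theorem inter_le {i : ℕ} (h1 : 1 ≤ i) (h2 : i < 20) {A : List ℕ}
    (hA : ∀ v ∈ Jl i, ∃ u < 8, lin A u = v) : EJ ⊓ Pi i ≤ span A := by
  intro x hx
  obtain ⟨hx1, hx2⟩ := Subgroup.mem_inf.1 hx
  obtain ⟨v, hv, rfl⟩ := mem_EJ.1 hx1
  obtain ⟨u, -, hu⟩ := hA v (inter h1 h2 hv hx2)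
  exact mem_span_of u hu

theorem inter_eq {i : ℕ} (h1 : 1 ≤ i) (h2 : i < 20) {A : List ℕ}
    (hA : ∀ v ∈ Jl i, ∃ u < 8, lin A u = v) (hin : ∀ a ∈ A, V a ∈ Pi i) :
    EJ ⊓ Pi i = span A := by
  apply le_antisymm (inter_le h1 h2 hA)
  exact span_le (fun a ha => Subgroup.mem_inf.2 ⟨V_mem a, hin a ha⟩)

theorem inter_bot {i : ℕ} (h1 : 1 ≤ i) (h2 : i < 20) (hJ : ∀ v ∈ Jl i, v = 0) :
    EJ ⊓ Pi i = ⊥ := by
  rw [eq_bot_iff]
  intro x hx
  obtain ⟨hx1, hx2⟩ := Subgroup.mem_inf.1 hx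
  obtain ⟨v, hv, rfl⟩ := mem_EJ.1 hx1
  rw [hJ v (inter h1 h2 hv hx2), V_zero]
  exact Subgroup.one_mem _

theorem inter1 : EJ ⊓ Pi 1 = Loc7.Z := by
  apply inter_eq (by norm_num) (by norm_num) (by decide +kernel)
  intro a ha
  have h1 : rr 1 = t := mul_one _
  have h2 : V a ∈ Loc7.Z := V_mem_span ha
  have h3 := Subgroup.mem_centralizer_iff.1 Loc7.t_cent _ h2
  unfold Pi
  rw [mem_cj, inv_inv, h1, ← h3, mul_inv_cancel_right]
  exact V_mem a

/-- a word -/
def w7 : List ℕ := [0, 2, 0, 2, 0, 2, 0, 1, 0, 1, 0, 2, 0, 2, 0, 1, 0, 1, 0, 2]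
/-- a word -/
def w8 : List ℕ := [1, 0, 2, 0, 2, 0, 1, 0, 2, 0, 2, 0, 2, 0, 2, 0, 2, 0, 2, 0, 1, 0, 2, 0]
/-- a word -/
def w11 : List ℕ := [2, 0, 2, 0, 2, 0, 2, 0, 2, 0, 2, 0, 1, 0, 1, 0, 2, 0]

/-- the span of the images -/
theorem cj_span {g : Cfsg.Spor.J4} {M : List ℕ} (h : ∀ v : ℕ, g * V v * g⁻¹ = V (lin M v))
    (A : List ℕ) : cj g (span A) = span (A.map (lin M)) := by
  have h1 : cj g (span A) ≤ span (A.map (lin M)) := by
    rw [Subgroup.map_le_iff_le_comap]
    apply span_le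
    intro a ha
    show g * V a * g⁻¹ ∈ span (A.map (lin M))
    rw [h]
    exact V_mem_span (List.mem_map_of_mem ha)
  refine le_antisymm h1 (span_le ?_)
  intro b hb
  obtain ⟨a, ha, rfl⟩ := List.mem_map.1 hb
  rw [← h a]
  exact ⟨V a, V_mem_span ha, rfl⟩

theorem inter7 : EJ ⊓ Pi 7 = cj (phi (Cfsg.Agent.J4.Nodes.wordG w7)) Loc7.Z := by
  have h1 : EJ ⊓ Pi 7 = span [36, 619, 94] := by
    apply inter_eq (by norm_num) (by norm_num) (by decide +kernel)
    intro a ha
    simp only [List.mem_cons, List.not_mem_nil, or_false] at ha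
    rcases ha with rfl | rfl | rfl
    · exact of_check (by norm_num) check7 (b := 817) (by simp)
    · exact of_check (by norm_num) check7 (b := 591) (by simp)
    · exact of_check (by norm_num) check7 (b := 477) (by simp)
  rw [h1]
  unfold Loc7.Z
  rw [cj_span (conj_V (isMat_word w7))]
  have h2 : zl.map (lin (mat w7)) = [36, 619, 94] := by decide +kernel
  rw [h2]

theorem s_eq_V : s = V 1024 := by
  apply rho_injective
  rw [rho_s, rho_V]

theorem isConj_V {w : List ℕ} {a : ℕ} (h : lin (mat w) 1024 = a) : IsConj s (V a) := by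
  rw [s_eq_V, isConj_iff]
  exact ⟨phi (Cfsg.Agent.J4.Nodes.wordG w), by rw [conj_V (isMat_word w), h]⟩

theorem A1563 : IsConj s (V 1563) := isConj_V (w := w8) (by decide +kernel)
theorem A765 : IsConj s (V 765) := isConj_V (w := w11) (by decide +kernel)

theorem mem_span_single {a : ℕ} {x : Cfsg.Spor.J4} : x ∈ span [a] ↔ x = 1 ∨ x = V a := by
  constructor
  · rintro ⟨u, rfl⟩
    rw [lin_cons, lin_nil]
    split_ifs
    · right
      have : a ^^^ 0 = a := Nat.xor_zero a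
      rw [this]
    · left; exact V_zero
  · rintro (rfl | rfl)
    · exact Subgroup.one_mem _
    · exact V_mem_span (List.mem_singleton.2 rfl)

theorem inter8 : EJ ⊓ Pi 8 = span [1563] := by
  apply inter_eq (by norm_num) (by norm_num) (by decide +kernel)
  intro a ha
  simp only [List.mem_cons, List.not_mem_nil, or_false] at ha
  subst ha
  exact of_check (by norm_num) check8 (b := 748) (by simp)

theorem inter11 : EJ ⊓ Pi 11 = span [765] := by
  apply inter_eq (by norm_num) (by norm_num) (by decide +kernel)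
  intro a ha
  simp only [List.mem_cons, List.not_mem_nil, or_false] at ha
  subst ha
  exact of_check (by norm_num) check11 (b := 444) (by simp)

theorem others : ∀ i < 20, i = 0 ∨ i = 1 ∨ i = 7 ∨ i = 8 ∨ i = 11 ∨ (1 ≤ i ∧ ∀ v ∈ Jl i, v = 0) := by
  decide +kernel

/-! ### F5 -/

/-- **F5**: two points intersect in 1, in a group of order 2 (of class 2A) or in a line -/
theorem f5 : F5 geo := by
  rintro _ _ ⟨g, rfl⟩ ⟨g', rfl⟩ hne
  obtain ⟨i, hi, h, h1, h2⟩ := pair g g'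
  rw [h1, h2] at hne ⊢
  rw [← cj_inf]
  have h2A : ∀ a, IsConj s (V a) → EJ ⊓ Pi i = span [a] →
      ∃ z, geo.A z ∧ ∀ x, x ∈ cj h (EJ ⊓ Pi i) ↔ x = 1 ∨ x = z := by
    intro a ha he
    refine ⟨h * V a * h⁻¹, ?_, ?_⟩
    · show IsConj s (h * V a * h⁻¹)
      exact ha.trans (isConj_iff.2 ⟨h, rfl⟩)
    · intro x
      rw [he, mem_cj, mem_span_single]
      constructor
      · rintro (h3 | h3)
        · left
          have : x = h * (h⁻¹ * x * h) * h⁻¹ := by group
          rw [this, h3]; group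
        · right
          rw [← h3]; group
      · rintro (rfl | rfl)
        · left; group
        · right; group
  rcases others i hi with rfl | rfl | rfl | rfl | rfl | ⟨h3, h4⟩
  · exfalso
    apply hne
    rw [Pi_zero]
  · right; right
    exact ⟨h, by rw [inter1]⟩
  · right; right
    exact ⟨h * phi (Cfsg.Agent.J4.Nodes.wordG w7), by rw [inter7, cj_mul]⟩
  · right; left
    exact h2A 1563 A1563 inter8
  · right; left
    exact h2A 765 A765 inter11
  · left
    rw [inter_bot h3 hi h4, cj_bot]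

/-! ### F17 -/

/-- the number of elements fixing the vector -/
def cnt (i : ℕ) : ℕ := ((List.range 2048).filter fun v => bit (Am i) v).length

theorem cnt_lt : ∀ i < 20, i = 0 ∨ i = 1 ∨ i = 7 ∨ i = 8 ∨ i = 11 ∨ cnt i < 32 := by
  decide +kernel

theorem card_cj {G : Type*} [Group G] (g : G) (H : Subgroup G) : Nat.card (cj g H) = Nat.card H :=
  (Nat.card_congr (H.equivMapOfInjective (MulAut.conj g).toMonoidHom
    (MulAut.conj g).injective).toEquiv).symm

theorem card_le_cnt {i : ℕ} (h1 : 1 ≤ i) (h2 : i < 20) :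
    Nat.card (EJ ⊓ Subgroup.normalizer (Pi i : Set Cfsg.Spor.J4) : Subgroup Cfsg.Spor.J4) ≤
      cnt i := by
  classical
  have hex : ∀ e : (EJ ⊓ Subgroup.normalizer (Pi i : Set Cfsg.Spor.J4) : Subgroup Cfsg.Spor.J4),
      ∃ v, v ∈ ((List.range 2048).filter fun v => bit (Am i) v).toFinset ∧
        (e : Cfsg.Spor.J4) = V v := by
    intro e
    obtain ⟨he1, he2⟩ := Subgroup.mem_inf.1 e.2
    obtain ⟨v, hv, h3⟩ := mem_EJ.1 he1
    refine ⟨v, ?_, h3⟩
    rw [List.mem_toFinset, List.mem_filter]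
    refine ⟨List.mem_range.2 hv, ?_⟩
    rw [h3] at he2
    exact norm_fix h1 h2 hv he2
  choose f hf1 hf2 using hex
  have h4 : Nat.card (EJ ⊓ Subgroup.normalizer (Pi i : Set Cfsg.Spor.J4) :
      Subgroup Cfsg.Spor.J4) ≤
      Nat.card {v // v ∈ ((List.range 2048).filter fun v => bit (Am i) v).toFinset} := by
    apply Nat.card_le_card_of_injective (fun e => ⟨f e, hf1 e⟩)
    intro a b hab
    have h5 : f a = f b := congrArg Subtype.val hab
    apply Subtype.ext
    rw [hf2, hf2, h5]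
  rw [Nat.card_eq_finsetCard] at h4
  exact h4.trans (List.toFinset_card_le _)

/-- **F17**: if `|P ∩ N(P')| ≥ 32` then `P` and `P'` meet -/
theorem f17 : F17 geo := by
  rintro _ _ ⟨g, rfl⟩ ⟨g', rfl⟩ hc
  obtain ⟨i, hi, h, h1, h2⟩ := pair g g'
  rw [h1, h2] at hc ⊢
  rw [cj_normalizer, ← cj_inf, card_cj] at hc
  rw [← cj_inf]
  intro hbot
  have hb : EJ ⊓ Pi i = ⊥ := by
    have h3 : cj h⁻¹ (cj h (EJ ⊓ Pi i)) = cj h⁻¹ ⊥ := by rw [hbot]
    rwa [← cj_mul, inv_mul_cancel, cj_one, cj_bot] at h3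
  have key : ∀ a, a < 2048 → a ≠ 0 → V a ∈ EJ ⊓ Pi i → False := by
    intro a ha hne h3
    rw [hb, Subgroup.mem_bot, ← V_zero] at h3
    exact hne (V_inj ha (by norm_num) h3)
  rcases cnt_lt i hi with rfl | rfl | rfl | rfl | rfl | h3
  · rw [Pi_zero, inf_idem] at hb
    exact key 1 (by norm_num) (by norm_num) (by rw [Pi_zero, inf_idem]; exact V_mem 1)
  · exact key 165 (by norm_num) (by norm_num) (by
      rw [inter1]; exact V_mem_span (A := zl) (by decide))
  · refine key 36 (by norm_num) (by norm_num) (Subgroup.mem_inf.2 ⟨V_mem _, ?_⟩)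
    exact of_check (by norm_num) check7 (b := 817) (by simp)
  · refine key 1563 (by norm_num) (by norm_num) (Subgroup.mem_inf.2 ⟨V_mem _, ?_⟩)
    exact of_check (by norm_num) check8 (b := 748) (by simp)
  · refine key 765 (by norm_num) (by norm_num) (Subgroup.mem_inf.2 ⟨V_mem _, ?_⟩)
    exact of_check (by norm_num) check11 (b := 444) (by simp)
  · rcases Nat.eq_zero_or_pos i with h0 | h0
    · subst h0
      exact key 1 (by norm_num) (by norm_num) (by rw [Pi_zero, inf_idem]; exact V_mem 1)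
    · have h4 := card_le_cnt h0 hi
      omega

end Cfsg.Agent.H68.JM
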