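import Cfsg.Agent.H68.JM.VecChk
import Cfsg.Agent.H858.Loc7

/-!
# Pairs of conjugates of `2^11` in `J4`: the intersections, and the normalizer of `2^11`
-/

set_option autoImplicit false

open Cfsg

namespace Cfsg.Agent.H68.JM

open Cfsg.Agent.Lib Cfsg.Agent.Lib.F2MatGroup
open Cfsg.Agent.J4.Rep112 Cfsg.Agent.J4.LowerData Cfsg.Agent.J4.Lower Cfsg.Agent.J4.Beta
open Cfsg.Agent.J4.Upper Cfsg.Agent.J4.Pres Cfsg.Agent.J4.Invol Cfsg.Agent.J4.M24Hom
open Cfsg.Agent.H858 Cfsg.Agent.H858.VK Cfsg.Agent.H858.Data Cfsg.Agent.H860.JM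

/-! ### The environment -/

theorem env {k : List ℕ → Bool} (h : run 112 slpQ codes k = true) :
    ∃ L, List.Forall₂ (Codes 112) ((runG slpQ gens).map rho) L ∧ k L = true := by
  obtain ⟨L, h1, h2⟩ := run_sound codes_gens h
  refine ⟨L, ?_, h2⟩
  rw [runG_map] at h1
  exact h1

theorem env_lJ {L : List ℕ} (h : List.Forall₂ (Codes 112) ((runG slpQ gens).map rho) L) :
    List.Forall₂ (Codes 112) (lJ.map rho) (L.take 11) := by
  have h1 := List.forall₂_take 11 h
  unfold lJ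
  rwa [List.map_take]

/-- the representatives -/
noncomputable def rr (i : ℕ) : Cfsg.Spor.J4 := evalW phi t (rw20 i)

theorem getG13 : getG (runG slpQ gens) 13 = x := rfl
theorem getG14 : getG (runG slpQ gens) 14 = y := rfl
theorem getG15 : getG (runG slpQ gens) 15 = y⁻¹ := rfl
theorem getG16 : getG (runG slpQ gens) 16 = t := rfl

theorem evalW_eq (w : List ℕ) (h : ∀ a ∈ w, a < 4) :
    evalW phi t w = evG (runG slpQ gens) (w.map (13 + ·)) := by
  induction w with
  | nil => rfl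
  | cons a w ih =>
    rw [List.map_cons, evG_cons, ← ih (fun b hb => h b (List.mem_cons_of_mem _ hb))]
    have ha := h a List.mem_cons_self
    show (if a = 3 then t else phi (Cfsg.Agent.J4.Nodes.letG a)) * evalW phi t w = _
    congr 1
    have h1 : a = 0 ∨ a = 1 ∨ a = 2 ∨ a = 3 := by omega
    rcases h1 with rfl | rfl | rfl | rfl
    · exact phi_X.trans getG13.symm
    · exact phi_Y.trans getG14.symm
    · have h2 : phi (Cfsg.Agent.J4.Nodes.letG 2) = y⁻¹ := by
        have : phi (Cfsg.Agent.J4.Nodes.letG 2) = phi YM⁻¹ := rfl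
        rw [this, map_inv, phi_Y]
      exact h2.trans getG15.symm
    · exact getG16.symm

theorem rw20_lt : ∀ i < 20, ∀ a ∈ rw20 i, a < 4 := by decide +kernel

theorem rr_eq {i : ℕ} (hi : i < 20) : rr i = evG (runG slpQ gens) (wd i) :=
  evalW_eq _ (rw20_lt i hi)

/-! ### The fixed vector -/

/-- the stabiliser of a vector -/
noncomputable def Fx (w : Row) : Subgroup Cfsg.Spor.J4 where
  carrier := {g | ac w g = w}
  one_mem' := ac_one w
  mul_mem' := by
    intro a b ha hb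
    have ha' : ac w a = w := ha
    have hb' : ac w b = w := hb
    show ac w (a * b) = w
    rw [ac_mul, ha', hb']
  inv_mem' := by
    intro a ha
    exact ac_inv ha

theorem mem_Fx {w : Row} {g : Cfsg.Spor.J4} : g ∈ Fx w ↔ ac w g = w := Iff.rfl

theorem row_add_self (v : Row) : v + v = 0 := CharTwo.add_self_eq_zero v

/-- the elements that fix `u` and map `w` to `w` or `w + u` -/
noncomputable def Fy (u w : Row) : Subgroup Cfsg.Spor.J4 where
  carrier := {g | ac u g = u ∧ (ac w g = w ∨ ac w g = w + u)}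
  one_mem' := ⟨ac_one u, Or.inl (ac_one w)⟩
  mul_mem' := by
    rintro a b ⟨ha, ha'⟩ ⟨hb, hb'⟩
    refine ⟨by rw [ac_mul, ha, hb], ?_⟩
    rcases ha' with ha' | ha' <;> rcases hb' with hb' | hb'
    · exact Or.inl (by rw [ac_mul, ha', hb'])
    · exact Or.inr (by rw [ac_mul, ha', hb'])
    · exact Or.inr (by rw [ac_mul, ha', ac_add, hb', hb])
    · exact Or.inl (by rw [ac_mul, ha', ac_add, hb', hb, add_assoc, row_add_self, add_zero])
  inv_mem' := by
    rintro a ⟨ha, ha'⟩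
    refine ⟨ac_inv ha, ?_⟩
    rcases ha' with ha' | ha'
    · exact Or.inl (ac_inv ha')
    · right
      have h1 : ac (w + u) a⁻¹ = w := by
        rw [← ha', ← ac_mul, mul_inv_cancel, ac_one]
      rw [ac_add, ac_inv ha] at h1
      calc ac w a⁻¹ = ac w a⁻¹ + (u + u) := by rw [row_add_self, add_zero]
        _ = w + u := by rw [← add_assoc, h1]

theorem tv_xor (a b : ℕ) : tv (Nat.xor a b) = tv a + tv b := by
  funext j
  show F2Mat.bz ((a ^^^ b).testBit j) = F2Mat.bz (a.testBit j) + F2Mat.bz (b.testBit j)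
  rw [Nat.testBit_xor, F2Mat.bz_xor]

theorem beta_lJ_mem (S : Subgroup Cfsg.Spor.J4) {L : List ℕ} {P : ℕ → Bool}
    (h : List.Forall₂ (Codes 112) (lJ.map rho) L) (hP : L.all P = true)
    (hS : ∀ g A, Codes 112 (rho g) A → P A = true → g ∈ S) (v : ℕ) : V v ∈ S := by
  unfold V
  apply beta_mem
  rw [List.forall₂_map_left_iff] at h
  intro g hg
  obtain ⟨n, hn, rfl⟩ := List.getElem_of_mem hg
  have h1 := (List.forall₂_iff_get.1 h)
  have hn' : n < L.length := by rw [← h1.1]; exact hn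
  have h2 := h1.2 n hn hn'
  rw [List.all_eq_true] at hP
  exact hS _ _ h2 (hP _ (List.get_mem L ⟨n, hn'⟩))

theorem props0 : (x ∈ Fx (tv u0) ∧ y ∈ Fx (tv u0)) ∧ (∀ v, V v ∈ Fx (tv u0)) ∧
    ∀ i < 20, ∀ v, V v ∈ Fy (tv u0) (tv (wv i)) := by
  obtain ⟨L, h, hk⟩ := env check0
  unfold chk0 at hk
  rw [Bool.and_eq_true, Bool.and_eq_true, Bool.and_eq_true] at hk
  obtain ⟨k1, k2, k3, k4⟩ := hk
  have h0 := env_lJ h
  refine ⟨⟨?_, ?_⟩, ?_, ?_⟩
  · have h1 := ac_code h u0 13
    rw [Nat.eq_of_beq_eq_true k1] at h1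
    exact h1
  · have h1 := ac_code h u0 14
    rw [Nat.eq_of_beq_eq_true k2] at h1
    exact h1
  · intro v
    refine beta_lJ_mem _ h0 k3 ?_ v
    intro g A hg hA
    rw [mem_Fx, ac_code' hg, Nat.eq_of_beq_eq_true hA]
  · intro i hi v
    rw [List.all_eq_true] at k4
    have k5 := k4 i (List.mem_range.2 hi)
    have k6 : (List.take 11 L).all (fun q => Nat.beq (F2Mat.vmul 112 u0 q) u0 &&
        (Nat.beq (F2Mat.vmul 112 (wv i) q) (wv i) ||
          Nat.beq (F2Mat.vmul 112 (wv i) q) (Nat.xor (wv i) u0))) = true := by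
      rw [List.all_eq_true] at k3 k5 ⊢
      intro q hq
      rw [k3 q hq, k5 q hq]
      rfl
    refine beta_lJ_mem _ h0 k6 ?_ v
    intro g A hg hA
    rw [Bool.and_eq_true, Bool.or_eq_true] at hA
    refine ⟨?_, ?_⟩
    · rw [ac_code' hg, Nat.eq_of_beq_eq_true hA.1]
    · rcases hA.2 with h1 | h1
      · left; rw [ac_code' hg, Nat.eq_of_beq_eq_true h1]
      · right; rw [ac_code' hg, Nat.eq_of_beq_eq_true h1, tv_xor]

theorem EJ_le_Fx : EJ ≤ Fx (tv u0) := by
  intro e he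
  obtain ⟨v, -, rfl⟩ := mem_EJ.1 he
  exact props0.2.1 v

theorem phi_le_Fx : phi.range ≤ Fx (tv u0) := by
  rw [phi_range, Subgroup.closure_le]
  rintro _ (rfl | rfl)
  · exact props0.1.1
  · exact props0.1.2

theorem B_le_Fx : FixJ4.B ≤ Fx (tv u0) := by
  intro g hg
  obtain ⟨e, he, k, rfl⟩ := mem_B.1 hg
  exact Subgroup.mul_mem _ (EJ_le_Fx he) (phi_le_Fx ⟨k, rfl⟩)

/-! ### The check -/

theorem chk_all {i : ℕ} (h1 : 1 ≤ i) (h2 : i < 20) : ∃ L,
    List.Forall₂ (Codes 112) ((runG slpQ gens).map rho) L ∧ chkI L i = true := by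
  have key : ∀ {l : List ℕ}, run 112 slpQ codes (fun L => l.all (chkI L)) = true → i ∈ l → ∃ L,
      List.Forall₂ (Codes 112) ((runG slpQ gens).map rho) L ∧ chkI L i = true := by
    intro l h hl
    obtain ⟨L, h3, hk⟩ := env h
    rw [List.all_eq_true] at hk
    exact ⟨L, h3, hk i hl⟩
  have h3 : i ∈ [1, 2, 3, 4, 5] ∨ i ∈ [6, 7, 8, 9, 10] ∨ i ∈ [11, 12, 13, 14, 15] ∨
      i ∈ [16, 17, 18, 19] := by
    simp only [List.mem_cons, List.not_mem_nil, or_false]
    omega
  rcases h3 with h | h | h | h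
  · exact key check1 h
  · exact key check2 h
  · exact key check3 h
  · exact key check4 h

/-- the image of the fixed vector -/
noncomputable def uu (i : ℕ) : Row := ac (tv u0) (rr i)
/-- the image of the vector of the second layer -/
noncomputable def ww (i : ℕ) : Row := ac (tv (wv i)) (rr i)

theorem u0_lt : u0 < 2 ^ 112 := by decide +kernel
theorem wv_lt : ∀ i < 20, wv i < 2 ^ 112 := by decide +kernel

theorem main {i : ℕ} (h1 : 1 ≤ i) (h2 : i < 20) {v : ℕ} (hv : v < 2048)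
    (hf : ac (uu i) (V v) = uu i) : bit (Am i) v = true ∧
      (v ∈ Jl i ∨ (ac (ww i) (V v) ≠ ww i ∧ ac (ww i) (V v) ≠ ww i + uu i)) := by
  obtain ⟨L, h, hk⟩ := chk_all h1 h2
  have h0 := env_lJ h
  unfold chkI at hk
  rw [F2Mat.force_eq, F2Mat.force_eq, F2Mat.force_eq] at hk
  have hu : uu i = tv (vword L (wd i) u0) := by
    unfold uu; rw [rr_eq h2, vword_sound h]
  have hw : ww i = tv (vword L (wd i) (wv i)) := by
    unfold ww; rw [rr_eq h2, vword_sound h]
  have hul := vword_lt (L := L) (w := wd i) u0_lt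
  have hwl := vword_lt (L := L) (w := wd i) (wv_lt i h2)
  set ui := vword L (wd i) u0 with hui
  set wi := vword L (wd i) (wv i) with hwi
  rw [hu] at hf
  have h3 := tree_sound hul h0 hul hk v (by rw [lJ_length]; exact hv) hf
  rw [zero_add, one_mul] at h3
  unfold okf at h3
  rcases hA : bit (Am i) v with _ | _
  · rw [hA] at h3; exact absurd h3 Bool.false_ne_true
  rw [hA] at h3
  refine ⟨rfl, ?_⟩
  rcases hJ : (Jl i).any (Nat.beq v) with _ | _
  · right
    rw [hJ] at h3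
    have h4 : (F2Mat.force (vbeta (L.take 11) v wi) fun w' => cond (Nat.beq w' wi) false
      (cond (Nat.beq w' (Nat.xor wi ui)) false true)) = true := h3
    rw [F2Mat.force_eq] at h4
    have h5 := vbeta_sound h0 v wi
    have hvl := vbeta_lt (L := L.take 11) (b := v) hwl
    have h6 : ac (ww i) (V v) = tv (vbeta (L.take 11) v wi) := by rw [hw]; exact h5
    constructor
    · intro h7
      rw [h6, hw] at h7
      rw [F2Mat.toVec_inj hvl hwl h7, Nat.beq_refl] at h4
      exact absurd h4 Bool.false_ne_true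
    · intro h7
      rw [h6, hw, hu, ← tv_xor] at h7
      have h8 : Nat.xor wi ui < 2 ^ 112 := Nat.xor_lt_two_pow hwl hul
      rw [F2Mat.toVec_inj hvl h8 h7, Nat.beq_refl] at h4
      rcases hb : Nat.beq (Nat.xor wi ui) wi with _ | _
      · rw [hb] at h4; exact absurd h4 Bool.false_ne_true
      · rw [hb] at h4; exact absurd h4 Bool.false_ne_true
  · left
    rw [List.any_eq_true] at hJ
    obtain ⟨a, ha, h5⟩ := hJ
    rw [Nat.eq_of_beq_eq_true h5]
    exact ha

/-! ### The points -/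

/-- the conjugates of `2^11` -/
noncomputable def Pi (i : ℕ) : Subgroup Cfsg.Spor.J4 := cj (rr i)⁻¹ EJ

theorem mem_cj {G : Type*} [Group G] {g x : G} {H : Subgroup G} :
    x ∈ cj g H ↔ g⁻¹ * x * g ∈ H := by
  constructor
  · rintro ⟨y, hy, rfl⟩
    have : g⁻¹ * (MulAut.conj g).toMonoidHom y * g = y := by
      show g⁻¹ * (g * y * g⁻¹) * g = y
      group
    rw [this]; exact hy
  · intro h
    refine ⟨_, h, ?_⟩
    show g * (g⁻¹ * x * g) * g⁻¹ = x
    group

theorem cj_mul {G : Type*} [Group G] (g h : G) (H : Subgroup G) : cj (g * h) H = cj g (cj h H) := by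
  ext x
  rw [mem_cj, mem_cj, mem_cj]
  have : (g * h)⁻¹ * x * (g * h) = h⁻¹ * (g⁻¹ * x * g) * h := by group
  rw [this]

theorem cj_one {G : Type*} [Group G] (H : Subgroup G) : cj 1 H = H := by
  ext x
  rw [mem_cj]; simp

theorem cj_inf {G : Type*} [Group G] (g : G) (H K : Subgroup G) :
    cj g (H ⊓ K) = cj g H ⊓ cj g K := by
  ext x
  rw [Subgroup.mem_inf, mem_cj, mem_cj, mem_cj, Subgroup.mem_inf]

theorem cj_bot {G : Type*} [Group G] (g : G) : cj g (⊥ : Subgroup G) = ⊥ := Subgroup.map_bot _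

theorem cj_normalizer {G : Type*} [Group G] (g : G) (H : Subgroup G) :
    Subgroup.normalizer (cj g H : Set G) = cj g (Subgroup.normalizer (H : Set G)) := by
  ext x
  rw [mem_cj, Subgroup.mem_normalizer_iff, Subgroup.mem_normalizer_iff]
  constructor
  · intro h y
    have h1 := h (g * y * g⁻¹)
    rw [mem_cj, mem_cj] at h1
    have e1 : g⁻¹ * (g * y * g⁻¹) * g = y := by group
    have e2 : g⁻¹ * (x * (g * y * g⁻¹) * x⁻¹) * g = g⁻¹ * x * g * y * (g⁻¹ * x * g)⁻¹ := by group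
    rw [e1, e2] at h1
    exact h1
  · intro h y
    have h1 := h (g⁻¹ * y * g)
    rw [mem_cj, mem_cj]
    have e2 : g⁻¹ * (x * y * x⁻¹) * g = g⁻¹ * x * g * (g⁻¹ * y * g) * (g⁻¹ * x * g)⁻¹ := by group
    rw [e2]
    exact h1

theorem cj_eq_of_mem {G : Type*} [Group G] {g : G} {H : Subgroup G}
    (h : g ∈ Subgroup.normalizer (H : Set G)) : cj g H = H := by
  ext x
  rw [mem_cj]
  have h1 := (Subgroup.mem_normalizer_iff.1 h) (g⁻¹ * x * g)
  have e1 : g * (g⁻¹ * x * g) * g⁻¹ = x := by group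
  rw [e1] at h1
  exact h1

theorem mem_of_cj_eq {G : Type*} [Group G] {g : G} {H : Subgroup G} (h : cj g H = H) :
    g ∈ Subgroup.normalizer (H : Set G) := by
  rw [Subgroup.mem_normalizer_iff]
  intro x
  conv_rhs => rw [← h]
  rw [mem_cj]
  have e1 : g⁻¹ * (g * x * g⁻¹) * g = x := by group
  rw [e1]

theorem B_norm : FixJ4.B ≤ Subgroup.normalizer (EJ : Set Cfsg.Spor.J4) := by
  intro g hg
  obtain ⟨e, he, k, rfl⟩ := mem_B.1 hg
  exact Subgroup.mul_mem _ (Subgroup.le_normalizer he) (phi_norm ⟨k, rfl⟩)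

theorem rr_zero : rr 0 = 1 := rfl

theorem Pi_zero : Pi 0 = EJ := by
  unfold Pi
  rw [rr_zero, inv_one, cj_one]

/-- every element of `J4` is in the coset of some representative -/
theorem exists_rep (g : Cfsg.Spor.J4) : ∃ i < 20, ∃ m : M24, ∃ b ∈ FixJ4.B,
    g = phi m * (rr i)⁻¹ * b := by
  obtain ⟨i, m, h⟩ := FixJ4.cover (QuotientGroup.mk g)
  refine ⟨i, i.2, m, (phi m * (rr i)⁻¹)⁻¹ * g, ?_, by group⟩
  have h1 : (QuotientGroup.mk g : Cfsg.Spor.J4 ⧸ FixJ4.B) = QuotientGroup.mk (phi m * (rr i)⁻¹) := h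
  rw [eq_comm, QuotientGroup.eq] at h1
  exact h1

/-- every pair of points is conjugate to `(EJ, Pi i)` -/
theorem pair (g g' : Cfsg.Spor.J4) : ∃ i < 20, ∃ h : Cfsg.Spor.J4, cj g EJ = cj h EJ ∧
    cj g' EJ = cj h (Pi i) := by
  obtain ⟨i, hi, m, b, hb, h⟩ := exists_rep (g⁻¹ * g')
  refine ⟨i, hi, g * phi m, ?_, ?_⟩
  · rw [cj_mul, cj_eq_of_mem (phi_norm ⟨m, rfl⟩)]
  · have h1 : g' = g * phi m * (rr i)⁻¹ * b := by
      calc g' = g * (g⁻¹ * g') := by group
        _ = g * phi m * (rr i)⁻¹ * b := by rw [h]; simp only [mul_assoc]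
    rw [h1, cj_mul, cj_eq_of_mem (B_norm hb), cj_mul]
    rfl

/-- an element of `Pi i` fixes the vectors -/
theorem inter {i : ℕ} (h1 : 1 ≤ i) (h2 : i < 20) {v : ℕ} (hv : v < 2048) (h : V v ∈ Pi i) :
    v ∈ Jl i := by
  unfold Pi at h
  rw [mem_cj, inv_inv, mem_EJ] at h
  obtain ⟨e, -, he⟩ := h
  have h3 : rr i * V v = V e * rr i := by rw [← he]; group
  have h4 : ac (uu i) (V v) = uu i := by
    unfold uu
    rw [← ac_mul, h3, ac_mul, props0.2.1 e]
  obtain ⟨-, h5 | h5⟩ := main h1 h2 hv h4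
  · exact h5
  · exfalso
    obtain ⟨h6, h7⟩ := h5
    rcases (props0.2.2 i h2 e).2 with h8 | h8
    · apply h6
      unfold ww
      rw [← ac_mul, h3, ac_mul, h8]
    · apply h7
      unfold ww uu
      rw [← ac_mul, h3, ac_mul, h8, ac_add]

theorem one_notMem_Jl : ∀ i < 20, 1 ∉ Jl i := by decide +kernel

theorem eq_zero_of_Pi {i : ℕ} (hi : i < 20) (h : Pi i = EJ) : i = 0 := by
  by_contra hne
  have h1 : V 1 ∈ Pi i := by rw [h]; exact V_mem 1
  exact one_notMem_Jl i hi (inter (by omega) hi (by norm_num) h1)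

/-- **the normalizer of `2^11` in `J4`** -/
theorem normalizer_EJ : Subgroup.normalizer (EJ : Set Cfsg.Spor.J4) = FixJ4.B := by
  apply le_antisymm _ B_norm
  intro g hg
  obtain ⟨i, hi, m, b, hb, h⟩ := exists_rep g
  have h1 := cj_eq_of_mem hg
  rw [h, mul_assoc, cj_mul, cj_mul, cj_eq_of_mem (B_norm hb)] at h1
  have h2 : Pi i = EJ := by
    have h3 : cj (phi m)⁻¹ (cj (phi m) (Pi i)) = cj (phi m)⁻¹ EJ := by
      unfold Pi; rw [h1]
    rw [← cj_mul, inv_mul_cancel, cj_one,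
      cj_eq_of_mem (Subgroup.inv_mem _ (phi_norm ⟨m, rfl⟩))] at h3
    exact h3
  have h3 := eq_zero_of_Pi hi h2
  subst h3
  rw [rr_zero, inv_one, mul_one] at h
  rw [h]
  exact Subgroup.mul_mem _ (range_le ⟨m, rfl⟩) hb

/-- an element of `EJ` that normalizes `Pi i` fixes the vector -/
theorem norm_fix {i : ℕ} (h1 : 1 ≤ i) (h2 : i < 20) {v : ℕ} (hv : v < 2048)
    (h : V v ∈ Subgroup.normalizer (Pi i : Set Cfsg.Spor.J4)) : bit (Am i) v = true := by
  unfold Pi at h
  rw [cj_normalizer, normalizer_EJ, mem_cj, inv_inv] at h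
  set e := rr i * V v * (rr i)⁻¹ with he
  have h3 : rr i * V v = e * rr i := by rw [he]; group
  have h4 : ac (uu i) (V v) = uu i := by
    unfold uu
    rw [← ac_mul, h3, ac_mul, B_le_Fx h]
  exact (main h1 h2 hv h4).1

end Cfsg.Agent.H68.JM
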