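import Cfsg.Agent.H860.JM.Defs

/-!
# Row vectors of the 112-dimensional representation of `J4`

Soundness of kernel computations with row vectors, the vector fixed by `2^11 : M24`, and a search
over the group `2^11`.
-/

set_option autoImplicit false

open Cfsg

namespace Cfsg.Agent.H68.JM

open Cfsg.Agent.Lib Cfsg.Agent.Lib.F2MatGroup
open Cfsg.Agent.J4.Rep112 Cfsg.Agent.J4.LowerData Cfsg.Agent.J4.Lower Cfsg.Agent.J4.Beta
open Cfsg.Agent.H858.VK Cfsg.Agent.H858.Data

/-! ### The action on row vectors -/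

/-- row vectors -/
abbrev Row := Fin 112 → ZMod 2

/-- the action on row vectors -/
noncomputable def ac (w : Row) (x : Cfsg.Spor.J4) : Row :=
  Matrix.vecMul w ((rho x : GL (Fin 112) (ZMod 2)) : Matrix (Fin 112) (Fin 112) (ZMod 2))

theorem ac_one (w : Row) : ac w 1 = w := by
  unfold ac
  rw [map_one, Units.val_one, Matrix.vecMul_one]

theorem ac_mul (w : Row) (x y : Cfsg.Spor.J4) : ac w (x * y) = ac (ac w x) y := by
  unfold ac
  rw [map_mul, Units.val_mul, Matrix.vecMul_vecMul]

theorem ac_add (v w : Row) (x : Cfsg.Spor.J4) : ac (v + w) x = ac v x + ac w x := by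
  unfold ac
  rw [Matrix.add_vecMul]

theorem ac_inv {w : Row} {x : Cfsg.Spor.J4} (h : ac w x = w) : ac w x⁻¹ = w := by
  conv_lhs => rw [← h]
  rw [← ac_mul, mul_inv_cancel, ac_one]

/-- the row vector with code `v` -/
abbrev tv (v : ℕ) : Row := F2Mat.toVec 112 v

theorem ac_code {LG : List Cfsg.Spor.J4} {L : List ℕ}
    (h : List.Forall₂ (Codes 112) (LG.map rho) L) (v i : ℕ) :
    ac (tv v) (getG LG i) = tv (F2Mat.vmul 112 v (get (F2Mat.one 112) L i)) := by
  have h1 := codes_get h i
  rw [getG_map] at h1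
  unfold Codes at h1
  unfold ac
  rw [h1, ← F2Mat.toVec_vmul]

/-- a vector times a word -/
def vword (L : List ℕ) (w : List ℕ) : ℕ → ℕ :=
  List.rec (motive := fun _ => ℕ → ℕ) (fun v => v)
    (fun i _ ih v => F2Mat.force (F2Mat.vmul 112 v (get (F2Mat.one 112) L i)) ih) w

theorem vword_cons (L : List ℕ) (i : ℕ) (w : List ℕ) (v : ℕ) :
    vword L (i :: w) v = vword L w (F2Mat.vmul 112 v (get (F2Mat.one 112) L i)) :=
  F2Mat.force_eq _ _

theorem vword_sound {LG : List Cfsg.Spor.J4} {L : List ℕ}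
    (h : List.Forall₂ (Codes 112) (LG.map rho) L) (w : List ℕ) (v : ℕ) :
    ac (tv v) (evG LG w) = tv (vword L w v) := by
  induction w generalizing v with
  | nil => exact ac_one _
  | cons i w ih =>
    rw [evG_cons, ac_mul, ac_code h, ih, vword_cons]

theorem vword_lt {L : List ℕ} {w : List ℕ} {v : ℕ} (h : v < 2 ^ 112) : vword L w v < 2 ^ 112 := by
  induction w generalizing v with
  | nil => exact h
  | cons i w ih => rw [vword_cons]; exact ih (F2Mat.vmul_lt _ _)

/-- a vector times the product of the matrices selected by the bits of `b` -/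
def vbeta (L : List ℕ) : ℕ → ℕ → ℕ :=
  List.rec (motive := fun _ => ℕ → ℕ → ℕ) (fun _ v => v)
    (fun A _ ih b v => cond (Nat.beq (b % 2) 1)
      (F2Mat.force (F2Mat.vmul 112 v A) fun u => ih (b / 2) u) (ih (b / 2) v)) L

theorem vbeta_cons (L : List ℕ) (A b v : ℕ) :
    vbeta (A :: L) b v = if b % 2 = 1 then vbeta L (b / 2) (F2Mat.vmul 112 v A) else
      vbeta L (b / 2) v := by
  change cond (Nat.beq (b % 2) 1)
      (F2Mat.force (F2Mat.vmul 112 v A) fun u => vbeta L (b / 2) u) (vbeta L (b / 2) v) = _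
  rw [F2Mat.force_eq]
  by_cases h : b % 2 = 1
  · rw [if_pos h, h]; rfl
  · rw [if_neg h]
    have : b % 2 = 0 := by omega
    rw [this]; rfl

theorem ac_code' {g : Cfsg.Spor.J4} {A : ℕ} (h : Codes 112 (rho g) A) (v : ℕ) :
    ac (tv v) g = tv (F2Mat.vmul 112 v A) := by
  unfold Codes at h
  unfold ac
  rw [h, ← F2Mat.toVec_vmul]

theorem vbeta_sound {LG : List Cfsg.Spor.J4} {L : List ℕ}
    (h : List.Forall₂ (Codes 112) (LG.map rho) L) (b v : ℕ) :
    ac (tv v) (beta LG b) = tv (vbeta L b v) := by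
  induction LG generalizing L b v with
  | nil =>
    rcases h with _ | _
    exact ac_one _
  | cons g LG ih =>
    rw [List.map_cons] at h
    rcases h with _ | @⟨_, A, _, L, h1, h2⟩
    rw [beta_cons, vbeta_cons, ac_mul]
    by_cases hb : b % 2 = 1
    · rw [if_pos hb, if_pos hb, ac_code' h1, ih h2]
    · rw [if_neg hb, if_neg hb, ac_one, ih h2]

theorem vbeta_lt {L : List ℕ} {b v : ℕ} (h : v < 2 ^ 112) : vbeta L b v < 2 ^ 112 := by
  induction L generalizing b v with
  | nil => exact h
  | cons A L ih =>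
    rw [vbeta_cons]
    split_ifs
    · exact ih (F2Mat.vmul_lt _ _)
    · exact ih h

/-! ### The search -/

/-- all products of subsets of the matrices in `L` that map `u` to `u0` have property `ok` -/
def tree (u0 : ℕ) (ok : ℕ → Bool) (L : List ℕ) : ℕ → ℕ → ℕ → Bool :=
  List.rec (motive := fun _ => ℕ → ℕ → ℕ → Bool)
   (fun u _ v => cond (Nat.beq u u0) (ok v) true)
   (fun q _ ih u b v => F2Mat.force (F2Mat.vmul 112 u q) fun u' =>
     F2Mat.force (Nat.mul 2 b) fun b2 => F2Mat.force (Nat.add v b) fun vb =>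
     cond (ih u b2 v) (ih u' b2 vb) false) L

theorem tree_cons (u0 : ℕ) (ok : ℕ → Bool) (q : ℕ) (L : List ℕ) (u b v : ℕ) :
    tree u0 ok (q :: L) u b v = (tree u0 ok L u (2 * b) v &&
      tree u0 ok L (F2Mat.vmul 112 u q) (2 * b) (v + b)) := by
  change (F2Mat.force (F2Mat.vmul 112 u q) fun u' =>
     F2Mat.force (Nat.mul 2 b) fun b2 => F2Mat.force (Nat.add v b) fun vb =>
     cond (tree u0 ok L u b2 v) (tree u0 ok L u' b2 vb) false) = _
  rw [F2Mat.force_eq, F2Mat.force_eq, F2Mat.force_eq]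
  show cond (tree u0 ok L u (2 * b) v) (tree u0 ok L (F2Mat.vmul 112 u q) (2 * b) (v + b)) false = _
  cases tree u0 ok L u (2 * b) v <;> rfl

theorem tree_sound {u0 : ℕ} (hu0 : u0 < 2 ^ 112) {ok : ℕ → Bool} {LG : List Cfsg.Spor.J4}
    {L : List ℕ} (h : List.Forall₂ (Codes 112) (LG.map rho) L) {u b v : ℕ} (hu : u < 2 ^ 112)
    (ht : tree u0 ok L u b v = true) (w : ℕ) (hw : w < 2 ^ LG.length)
    (hac : ac (tv u) (beta LG w) = tv u0) : ok (v + b * w) = true := by
  induction LG generalizing L u b v w with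
  | nil =>
    rcases h with _ | _
    have hw0 : w = 0 := by simpa using hw
    subst hw0
    rw [beta_nil, ac_one] at hac
    have h1 : u = u0 := F2Mat.toVec_inj hu hu0 hac
    have h2 : cond (Nat.beq u u0) (ok v) true = true := ht
    rw [h1, Nat.beq_refl] at h2
    rw [mul_zero, add_zero]
    exact h2
  | cons g LG ih =>
    rw [List.map_cons] at h
    rcases h with _ | @⟨_, A, _, L, h1, h2⟩
    rw [tree_cons, Bool.and_eq_true] at ht
    rw [beta_cons, ac_mul] at hac
    rw [List.length_cons, pow_succ] at hw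
    have hw2 : w / 2 < 2 ^ LG.length := by omega
    by_cases hb : w % 2 = 1
    · rw [if_pos hb, ac_code' h1] at hac
      have h3 := ih h2 (F2Mat.vmul_lt _ _) ht.2 (w / 2) hw2 hac
      have h4 : v + b + 2 * b * (w / 2) = v + b * w := by
        have : w = 2 * (w / 2) + 1 := by omega
        calc v + b + 2 * b * (w / 2) = v + b * (2 * (w / 2) + 1) := by ring
          _ = v + b * w := by rw [← this]
      rwa [h4] at h3
    · rw [if_neg hb, ac_one] at hac
      have h3 := ih h2 hu ht.1 (w / 2) hw2 hac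
      have h4 : v + 2 * b * (w / 2) = v + b * w := by
        have : w = 2 * (w / 2) := by omega
        calc v + 2 * b * (w / 2) = v + b * (2 * (w / 2)) := by ring
          _ = v + b * w := by rw [← this]
      rwa [h4] at h3

end Cfsg.Agent.H68.JM
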